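import Cfsg.Agent.H22.Main22
import Cfsg.Agent.H96.Fi22O6

/-! Fi22 is of type M(22). -/

set_option autoImplicit false

namespace Cfsg.Agent.H22

open Cfsg.Agent.H96

theorem type22 : IsOfTypeM22 Spor.Fi22 D22 := by
  obtain ⟨h1, c, h2, h3⟩ := o6_22 a22_mem b22_mem not_commute_ab22
  exact type22_iff.2 ⟨center22, _, a22_mem, _, b22_mem, not_commute_ab22,
    ⟨H29.F4, _, _, rfl, u6_22 H29.F4 rfl⟩, c, h2, projRefl_of_equiv (quotCenter h1) h3⟩

end Cfsg.Agent.H22
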