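import Cfsg.Agent.H22.Type22
import Cfsg.Agent.H96.Fi23O7

/-! Fi23 is of type M(23). -/

set_option autoImplicit false

namespace Cfsg.Agent.H22

open Cfsg.Agent.H96

theorem type23 : IsOfTypeM23 Spor.Fi23 D23 := by
  obtain ⟨h1, -, c, h2, h3⟩ := o7_23 t23_mem j23_mem not_commute_tj23
  obtain ⟨e, he, -⟩ := iso_nb23
  exact type23_iff.2 ⟨center23, _, t23_mem, _, j23_mem, not_commute_tj23,
    type22_of_equiv e he type22, c, h2, projRefl_of_equiv (quotCenter h1) h3⟩

end Cfsg.Agent.H22
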